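import Cfsg.Agent.H536.Nine.Cnt

/-!
# S5227, section A: `|T ∩ K| ≠ 9`, part 8 (helper536): `|Syl_3(K)|` is 1 or 19 modulo 27
-/

set_option autoImplicit false

namespace Cfsg.Agent.H536.Nine

open Subgroup Cfsg.Agent.H776.Co

universe u

variable {Γ : Type u} [Group Γ] {T U1 U2 K : Subgroup Γ} {z : Γ}

open scoped Classical in
theorem Half.card_union (h : Half T U1 U2 z) [Fintype T] :
    (Finset.univ.filter (fun a : T => (a : Γ) ∈ U1 ∨ (a : Γ) ∈ U2)).card = 15 := by
  have key : ∀ U : Subgroup Γ, U ≤ T → (Finset.univ.filter (fun a : T => (a : Γ) ∈ U)).card = Nat.card U := by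
    intro U hU
    rw [← Fintype.card_subtype, ← Nat.card_eq_fintype_card, ← Nat.card_congr (subgroupOfEquivOfLe hU).toEquiv]
    rfl
  have h1 := Finset.card_union_add_card_inter (Finset.univ.filter (fun a : T => (a : Γ) ∈ U1))
    (Finset.univ.filter (fun a : T => (a : Γ) ∈ U2))
  rw [← Finset.filter_or, ← Finset.filter_and, key U1 h.le1, key U2 h.le2, h.card1, h.card2] at h1
  have h2 : (Finset.univ.filter (fun a : T => (a : Γ) ∈ U1 ∧ (a : Γ) ∈ U2)).card = 3 := by
    have h3 := key (U1 ⊓ U2) (inf_le_left.trans h.le1)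
    rw [h.inf, h.card_z] at h3
    rw [← h3]
    congr 1
    ext a
    rw [Finset.mem_filter, Finset.mem_filter, ← h.inf, mem_inf]
  rw [h2] at h1
  omega

open scoped Classical in
theorem Ctx1.mod_27 [Finite Γ] (h : Ctx1 T U1 U2 z K) : Nat.card (Om K) % 27 = 1 ∨ Nat.card (Om K) % 27 = 19 := by
  have hK := h.normal
  let _ : Fintype T := Fintype.ofFinite T
  have hu := h.card_union
  have hT : Fintype.card T = 27 := by rw [← Nat.card_eq_fintype_card, h.card_T]
  -- a regular element
  obtain ⟨t0, ht0⟩ : ∃ a : T, ¬ ((a : Γ) ∈ U1 ∨ (a : Γ) ∈ U2) := by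
    by_contra hne
    push Not at hne
    rw [Finset.filter_true_of_mem (fun a _ => hne a), Finset.card_univ, hT] at hu
    norm_num at hu
  rw [not_or] at ht0
  set f := Nat.card (MulAction.fixedBy (Om K) (t0 : Γ)) with hf
  have hf14 : f = 1 ∨ f = 4 := h.card_fix t0.2 ht0.1 ht0.2
  have hsum : ∑ a : T, Nat.card (MulAction.fixedBy (Om K) a) =
      Nat.card (Quotient (MulAction.orbitRel T (Om K))) * 27 := by
    rw [← Nat.card_sigma, Nat.card_congr (MulAction.sigmaFixedByEquivOrbitsProdGroup T (Om K)), Nat.card_prod, h.card_T]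
  have hF : ∀ a : T, (Nat.card (MulAction.fixedBy (Om K) a) : ℤ) = f + (if (a : Γ) ∈ U1 ∨ (a : Γ) ∈ U2 then 1 - (f : ℤ) else 0) +
      (if a = 1 then (Nat.card (Om K) : ℤ) - 1 else 0) := by
    intro a
    by_cases ha1 : a = 1
    · subst ha1
      have h0 : ((1 : T) : Γ) ∈ U1 ∨ ((1 : T) : Γ) ∈ U2 := Or.inl U1.one_mem
      rw [if_pos rfl, if_pos h0]
      have h1 : MulAction.fixedBy (Om K) (1 : T) = Set.univ := by
        ext Q
        simp
      rw [h1, Nat.card_coe_set_eq, Set.ncard_univ]
      ring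
    · rw [if_neg ha1]
      have ha1' : (a : Γ) ≠ 1 := fun h1 => ha1 (Subtype.ext h1)
      by_cases hau : (a : Γ) ∈ U1 ∨ (a : Γ) ∈ U2
      · rw [if_pos hau]
        have h1 : MulAction.fixedBy (Om K) a = {h.P0} := by
          ext Q
          rw [Set.mem_singleton_iff]
          constructor
          · intro hQ
            exact h.fix_dist hau ha1' hQ
          · rintro rfl
            exact h.smul_P0 a.2
        rw [h1, Nat.card_coe_set_eq, Set.ncard_singleton]
        push_cast
        ring
      · rw [if_neg hau]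
        rw [not_or] at hau
        obtain ⟨g, hg⟩ := h.reg_conj t0 t0.2 ht0.1 ht0.2 a a.2 hau.1 hau.2
        have h1 := h.card_fix_conj hg
        have h2 : Nat.card (MulAction.fixedBy (Om K) a) = f := h1.symm
        rw [h2]
        ring
  have hsum' : (∑ a : T, (Nat.card (MulAction.fixedBy (Om K) a) : ℤ)) = 12 * f + 14 + Nat.card (Om K) := by
    rw [Finset.sum_congr rfl (fun a _ => hF a), Finset.sum_add_distrib, Finset.sum_add_distrib, Finset.sum_const,
      Finset.card_univ, hT, ← Finset.sum_filter, Finset.sum_const, hu, ← Finset.sum_filter, Finset.sum_const]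
    have h1 : (Finset.univ.filter (fun a : T => a = 1)).card = 1 := by
      rw [Finset.card_eq_one]
      exact ⟨1, by ext a; simp⟩
    rw [h1]
    simp only [nsmul_eq_mul]
    push_cast
    ring
  rw [← Nat.cast_sum, hsum] at hsum'
  push_cast at hsum'
  rcases hf14 with h1 | h1
  · rw [h1] at hsum'
    left
    omega
  · rw [h1] at hsum'
    right
    omega

end Cfsg.Agent.H536.Nine
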