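import Cfsg.Agent.H536.Nine.Reg

/-!
# S5227, section A: `|T ∩ K| ≠ 9`, part 7 (helper536): number of the fixed points of the regular elements
-/

set_option autoImplicit false

namespace Cfsg.Agent.H536.Nine

open Subgroup Cfsg.Agent.H776.Co

universe u

variable {Γ : Type u} [Group Γ] {T U1 U2 K : Subgroup Γ} {z : Γ}

/-- the subgroups of order 3 of `C_K(t)` -/
def V3 (K : Subgroup Γ) (t : Γ) : Type u := {W : Subgroup Γ // W ≤ K ∧ W ≤ centralizer ({t} : Set Γ) ∧ Nat.card W = 3}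

theorem exists_ne_one {W : Subgroup Γ} (hW : Nat.card W = 3) : ∃ u ∈ W, u ≠ 1 := by
  by_contra hne
  push Not at hne
  have : W = ⊥ := eq_bot_iff.2 fun x hx => mem_bot.2 (hne x hx)
  rw [this, card_bot] at hW
  norm_num at hW

theorem ctr_of_mem_ctr {t u : Γ} (hu : u ∈ centralizer ({t} : Set Γ)) : t⁻¹ * u * t = u := by
  have h1 := mem_centralizer_singleton_iff.1 hu
  rw [mul_assoc, h1]
  group

/-- the Sylow subgroups from the subgroups of order 9 -/
theorem eq_nine_of_le {W W' : Subgroup Γ} (hW : Nat.card W' = Nat.card W) (hW0 : Nat.card W' ≠ 0) (h : W ≤ W') : W = W' := by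
  have hfin : Finite W' := Nat.finite_of_card_ne_zero hW0
  exact eq_of_le_of_card_ge h (by rw [hW])

namespace Ctx1

variable [Finite Γ]

section

variable {t : Γ} (h : Ctx1 T U1 U2 z K) (ht : t ∈ T) (h1 : t ∉ U1) (h2 : t ∉ U2)

include h ht h1 in
theorem card_inf_ctr {Q : Om K} (hQ : have := h.normal; t • Q = Q) : Nat.card ↥(Q.1 ⊓ centralizer ({t} : Set Γ)) = 3 := by
  have hK := h.normal
  change t • Q = Q at hQ
  rw [smul_eq_iff] at hQ
  obtain ⟨u, hu, hu1, htu⟩ := exists_comm Q.card (h.exp t ht) hQ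
  rcases card_le_nine Q.card (inf_le_left : Q.1 ⊓ centralizer ({t} : Set Γ) ≤ Q.1) with h3 | h3 | h3
  · exfalso
    have h4 := card_eq_one.1 h3
    have h5 : u ∈ Q.1 ⊓ centralizer ({t} : Set Γ) := ⟨hu, mem_centralizer_singleton_iff.2 htu.symm⟩
    rw [h4, mem_bot] at h5
    exact hu1 h5
  · exact h3
  · exfalso
    apply h.not_le_ctr ht h1 Q
    rw [← h3]
    exact inf_le_right

include h ht h1 in
omit [Finite Γ] in
theorem order_t' : Nat.card (zpowers t) = 3 := by rw [Nat.card_zpowers, h.order_t ht h1]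

include h ht h1 h2 in
theorem t_mem {S : Om (centralizer ({t} : Set Γ))} : t ∈ S.1 := by
  have hzp : IsPGroup 3 (zpowers t) := IsPGroup.of_card (n := 1) (by rw [h.order_t' ht h1]; norm_num)
  have h3 : IsPGroup 3 ↥(S.1 ⊔ zpowers t) := by
    apply (pgroup_of_nine S.card).to_sup_of_normal_right' hzp
    intro x hx
    have h4 := mem_centralizer_singleton_iff.1 (S.le hx)
    rw [mem_normalizer_iff]
    intro y
    have h5 : ∀ y ∈ zpowers t, x * y * x⁻¹ = y := by
      intro y hy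
      obtain ⟨i, rfl⟩ := mem_zpowers_iff.1 hy
      have h6 : x * t ^ i = t ^ i * x := (Commute.zpow_right h4 i).eq
      rw [h6]
      group
    constructor
    · intro hy
      have h6 := h5 y hy
      change x * y * x⁻¹ ∈ zpowers t
      rw [h6]
      exact hy
    · intro hy
      change x * y * x⁻¹ ∈ zpowers t at hy
      obtain ⟨i, hi⟩ := mem_zpowers_iff.1 hy
      have h6 : y = x⁻¹ * (t ^ i) * x := by rw [hi]; group
      have h7 : t ^ i * x = x * t ^ i := (Commute.zpow_right h4 i).eq.symm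
      rw [h6, mul_assoc, h7]
      change x⁻¹ * (x * t ^ i) ∈ zpowers t
      rw [inv_mul_cancel_left]
      exact zpow_mem_zpowers t i
  have h4 : S.1 ⊔ zpowers t ≤ centralizer ({t} : Set Γ) :=
    sup_le S.le (zpowers_le.2 (mem_centralizer_singleton_iff.2 rfl))
  have h5 := eq_of_pgroup (h.nine_dvd_ctr ht h1) (h.not_27_ctr ht h1 h2) h3 h4 (Q := S) le_sup_left
  rw [← h5]
  exact mem_sup_right (mem_zpowers t)

include h ht h1 h2 in
theorem card_inf_K {S : Om (centralizer ({t} : Set Γ))} : Nat.card ↥(S.1 ⊓ K) = 3 := by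
  have hK := h.normal
  rcases card_le_nine S.card (inf_le_left : S.1 ⊓ K ≤ S.1) with h3 | h3 | h3
  · exfalso
    apply h.syl
    have h4 : K.relIndex S.1 = 9 := by
      have h5 := (K.subgroupOf S.1).card_mul_index
      have h6 : Nat.card (K.subgroupOf S.1) = 1 := by
        rw [card_eq_one] at h3 ⊢
        rw [subgroupOf_eq_bot, disjoint_iff, inf_comm]
        exact h3
      rw [h6, one_mul, S.card] at h5
      exact h5
    have h5 : 9 ∣ K.index := by
      rw [← h4]
      exact relIndex_dvd_index_of_normal K S.1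
    have h6 := mul_dvd_mul h.nine_dvd h5
    rw [K.card_mul_index, ← T.card_mul_index, h.card_T] at h6
    have h7 : 27 * 3 ∣ 27 * T.index := by
      simpa using h6
    exact Nat.dvd_of_mul_dvd_mul_left (by norm_num) h7
  · exact h3
  · exfalso
    apply h.notMem_K ht h1
    have h4 : t ∈ S.1 := h.t_mem ht h1 h2
    rw [← h3] at h4
    exact h4.2

/-- the first map -/
def f1 (Q : {Q : Om K // have := h.normal; t • Q = Q}) : V3 K t :=
  ⟨Q.1.1 ⊓ centralizer ({t} : Set Γ), inf_le_left.trans Q.1.le, inf_le_right, h.card_inf_ctr ht h1 Q.2⟩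

/-- the second map -/
def f2 (S : Om (centralizer ({t} : Set Γ))) : V3 K t :=
  ⟨S.1 ⊓ K, inf_le_right, inf_le_left.trans S.le, h.card_inf_K ht h1 h2⟩

theorem f1_bij : Function.Bijective (h.f1 ht h1) := by
  have hK := h.normal
  constructor
  · intro Q Q' hQ
    have h3 : Q.1.1 ⊓ centralizer ({t} : Set Γ) = Q'.1.1 ⊓ centralizer ({t} : Set Γ) := congrArg Subtype.val hQ
    obtain ⟨u, hu, hu1⟩ := exists_ne_one (h.card_inf_ctr ht h1 Q.2)
    have hu' := hu
    rw [h3] at hu'
    exact Subtype.ext (h.ti hu.1 hu'.1 hu1)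
  · rintro ⟨W, hWK, hWC, hW⟩
    have hWp : IsPGroup 3 W := IsPGroup.of_card (n := 1) (by rw [hW]; norm_num)
    obtain ⟨Q, hQ⟩ := exists_ge h.nine_dvd h.not_27 hWp hWK
    obtain ⟨u, hu, hu1⟩ := exists_ne_one hW
    have hfix : t • Q = Q := by
      apply h.ti (u := u) _ (hQ hu) hu1
      rw [coe_smul, mem_cj, ctr_of_mem_ctr (hWC hu)]
      exact hQ hu
    refine ⟨⟨Q, hfix⟩, Subtype.ext ?_⟩
    change Q.1 ⊓ centralizer ({t} : Set Γ) = W
    have h3 := h.card_inf_ctr ht h1 (Q := Q) hfix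
    exact (eq_nine_of_le (by rw [h3, hW]) (by rw [h3]; norm_num) (le_inf hQ hWC)).symm

include h ht h1 in
theorem card_V_sup {W : Subgroup Γ} (hWK : W ≤ K) (hWC : W ≤ centralizer ({t} : Set Γ)) (hW : Nat.card W = 3) :
    Nat.card ↥(W ⊔ zpowers t) = 9 := by
  apply card_sup_zpowers hW (h.order_t ht h1)
  · intro h3
    exact h.notMem_K ht h1 (hWK h3)
  · intro x hx
    exact mem_centralizer_singleton_iff.1 (hWC hx)

theorem f2_bij : Function.Bijective (h.f2 ht h1 h2) := by
  have hK := h.normal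
  constructor
  · intro S S' hS
    have h3 : S.1 ⊓ K = S'.1 ⊓ K := congrArg Subtype.val hS
    have key : ∀ S : Om (centralizer ({t} : Set Γ)), (S.1 ⊓ K) ⊔ zpowers t = S.1 := by
      intro S
      have h4 : Nat.card ↥((S.1 ⊓ K) ⊔ zpowers t) = 9 :=
        h.card_V_sup ht h1 inf_le_right (inf_le_left.trans S.le) (h.card_inf_K ht h1 h2)
      exact eq_nine_of_le (by rw [h4, S.card]) (by rw [S.card]; norm_num)
        (sup_le inf_le_left (zpowers_le.2 (h.t_mem ht h1 h2)))
    apply Om.ext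
    rw [← key S, ← key S', h3]
  · rintro ⟨W, hWK, hWC, hW⟩
    have h4 := h.card_V_sup ht h1 hWK hWC hW
    refine ⟨⟨W ⊔ zpowers t, sup_le hWC (zpowers_le.2 (mem_centralizer_singleton_iff.2 rfl)), h4⟩, Subtype.ext ?_⟩
    change (W ⊔ zpowers t) ⊓ K = W
    have h5 := h.card_inf_K ht h1 h2
      (S := ⟨W ⊔ zpowers t, sup_le hWC (zpowers_le.2 (mem_centralizer_singleton_iff.2 rfl)), h4⟩)
    exact (eq_nine_of_le (by rw [h5, hW]) (by rw [h5]; norm_num) (le_inf le_sup_left hWK)).symm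

include h ht h1 h2 in
theorem card_fix : Nat.card {Q : Om K // have := h.normal; t • Q = Q} = 1 ∨
    Nat.card {Q : Om K // have := h.normal; t • Q = Q} = 4 := by
  rw [Nat.card_congr (Equiv.ofBijective _ (h.f1_bij ht h1)),
    ← Nat.card_congr (Equiv.ofBijective _ (h.f2_bij ht h1 h2)), card_Om (h.nine_dvd_ctr ht h1) (h.not_27_ctr ht h1 h2)]
  exact h.reg t ht h1 h2

end

theorem card_fix_conj (h : Ctx1 T U1 U2 z K) {x y g : Γ} (hg : g * x * g⁻¹ = y ∨ g * x * g⁻¹ = y⁻¹) :
    Nat.card {Q : Om K // have := h.normal; x • Q = Q} = Nat.card {Q : Om K // have := h.normal; y • Q = Q} := by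
  have hK := h.normal
  change Nat.card (MulAction.fixedBy (Om K) x) = Nat.card (MulAction.fixedBy (Om K) y)
  have key : ∀ w : Γ, g * x * g⁻¹ = w → Nat.card (MulAction.fixedBy (Om K) x) = Nat.card (MulAction.fixedBy (Om K) w) := by
    rintro w rfl
    refine Nat.card_congr (Equiv.ofBijective (fun Q : MulAction.fixedBy (Om K) x =>
      (⟨g • Q.1, ?_⟩ : MulAction.fixedBy (Om K) (g * x * g⁻¹))) ⟨?_, ?_⟩)
    · have h1 : x • Q.1 = Q.1 := Q.2
      change (g * x * g⁻¹) • (g • Q.1) = g • Q.1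
      rw [smul_smul, inv_mul_cancel_right, mul_smul, h1]
    · intro Q Q' hQ
      exact Subtype.ext (smul_left_cancel g (congrArg Subtype.val hQ))
    · rintro ⟨Q, hQ⟩
      have h1 : (g * x * g⁻¹) • Q = Q := hQ
      refine ⟨⟨g⁻¹ • Q, ?_⟩, Subtype.ext ?_⟩
      · change x • (g⁻¹ • Q) = g⁻¹ • Q
        calc x • (g⁻¹ • Q) = g⁻¹ • ((g * x * g⁻¹) • Q) := by rw [smul_smul, smul_smul]; congr 1; group
          _ = _ := by rw [h1]
      · change g • (g⁻¹ • Q) = Q
        rw [smul_inv_smul]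
  rcases hg with h1 | h1
  · exact key y h1
  · rw [key _ h1, MulAction.fixedBy_inv]

end Ctx1

end Cfsg.Agent.H536.Nine
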