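import Cfsg.Agent.H536.Nine.Ctr

/-!
# S5227, section A: `|T ∩ K| ≠ 9`, part 5 (helper536): fixed points of the elements of `T` on the Sylow subgroups of `K`
-/

set_option autoImplicit false

namespace Cfsg.Agent.H536.Nine

open Subgroup Cfsg.Agent.H776.Co

universe u

variable {Γ : Type u} [Group Γ] {T U1 U2 K : Subgroup Γ} {z : Γ}

theorem pgroup_of_nine {Q : Subgroup Γ} (hQ : Nat.card Q = 9) : IsPGroup 3 Q := by
  apply IsPGroup.of_card (n := 2)
  rw [hQ]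
  norm_num

/-- an element of order 3 normalizing a group of order 9 centralizes an element ≠ 1 -/
theorem exists_comm {Q : Subgroup Γ} (hQ : Nat.card Q = 9) {t : Γ} (ht : t ^ 3 = 1) (hn : ∀ x ∈ Q, t⁻¹ * x * t ∈ Q) :
    ∃ u ∈ Q, u ≠ 1 ∧ t * u = u * t := by
  classical
  have : Fact (Nat.Prime 3) := ⟨Nat.prime_three⟩
  have hfin : Finite Q := Nat.finite_of_card_ne_zero (by rw [hQ]; norm_num)
  let _ := Fintype.ofFinite Q
  have h0 : t * t * t = 1 := by
    rw [← ht]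
    simp only [pow_succ, pow_zero, one_mul]
  have h2 : t⁻¹ * t⁻¹ = t := by
    have h3 : t⁻¹ * t⁻¹ * (t * t * t) = t := by group
    rwa [h0, mul_one] at h3
  have h2' : t * t = t⁻¹ := eq_inv_of_mul_eq_one_left h0
  have hn' : ∀ x ∈ Q, t * x * t⁻¹ ∈ Q := by
    intro x hx
    have h3 := hn _ (hn x hx)
    have h4 : t⁻¹ * (t⁻¹ * x * t) * t = (t⁻¹ * t⁻¹) * x * (t * t) := by group
    rwa [h4, h2, h2'] at h3
  let σ : Equiv.Perm Q :=
    { toFun := fun x => ⟨t⁻¹ * x * t, hn x x.2⟩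
      invFun := fun x => ⟨t * x * t⁻¹, hn' x x.2⟩
      left_inv := fun x => Subtype.ext (by change t * (t⁻¹ * x * t) * t⁻¹ = x; group)
      right_inv := fun x => Subtype.ext (by change t⁻¹ * (t * x * t⁻¹) * t = x; group) }
  have hσ : σ ^ 3 ^ 1 = 1 := by
    ext x
    rw [pow_one]
    change t⁻¹ * (t⁻¹ * (t⁻¹ * x * t) * t) * t = x
    have h3 : t⁻¹ * (t⁻¹ * (t⁻¹ * x * t) * t) * t = (t * t * t)⁻¹ * x * (t * t * t) := by group
    rw [h3, h0]
    simp
  have hcard : 3 ∣ Fintype.card Q := by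
    rw [← Nat.card_eq_fintype_card, hQ]
    norm_num
  have hf1 : σ 1 = 1 := Subtype.ext (by change t⁻¹ * 1 * t = 1; group)
  obtain ⟨b, hb, hb1⟩ := Equiv.Perm.exists_fixed_point_of_prime' hcard hσ hf1
  refine ⟨b, b.2, fun h => hb1 (Subtype.ext h), ?_⟩
  have h3 : t⁻¹ * b * t = b := congrArg Subtype.val hb
  calc t * (b : Γ) = t * (t⁻¹ * b * t) := by rw [h3]
    _ = b * t := by group

namespace Ctx1

theorem le_K (h : Ctx1 T U1 U2 z K) : U1 ≤ K := by
  rw [← h.eq]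
  exact inf_le_right

/-- `U1` as a point -/
def P0 (h : Ctx1 T U1 U2 z K) : Om K := ⟨U1, h.le_K, h.card1⟩

variable [Finite Γ]

theorem ti_aux (h : Ctx1 T U1 U2 z K) {Q : Om K} {u : Γ} (hu : u ∈ U1) (hu' : u ∈ Q.1) (h1 : u ≠ 1) : Q = h.P0 := by
  have h2 : IsPGroup 3 ↥(U1 ⊔ Q.1) := by
    apply h.tri u (Or.inl hu) h1 U1 Q.1 (pgroup_of_nine h.card1) (pgroup_of_nine Q.card)
    · intro x hx
      exact mem_centralizer_singleton_iff.2 (comm_of_nine h.card1 hx hu)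
    · intro x hx
      exact mem_centralizer_singleton_iff.2 (comm_of_nine Q.card hx hu')
  have h3 : U1 ⊔ Q.1 ≤ K := sup_le h.le_K Q.le
  have h4 := eq_of_pgroup h.nine_dvd h.not_27 h2 h3 (Q := Q) le_sup_right
  have h5 := eq_of_pgroup h.nine_dvd h.not_27 h2 h3 (Q := h.P0) le_sup_left
  apply Om.ext
  rw [← h4, ← h5]

/-- trivial intersections -/
theorem ti (h : Ctx1 T U1 U2 z K) {Q Q' : Om K} {u : Γ} (hu : u ∈ Q.1) (hu' : u ∈ Q'.1) (h1 : u ≠ 1) : Q = Q' := by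
  have hK := h.normal
  obtain ⟨k, hk, hkQ⟩ := exists_smul h.nine_dvd h.not_27 Q h.P0
  have h2 : k * u * k⁻¹ ∈ (k • Q).1 := by
    rw [coe_smul, mem_cj]
    have : k⁻¹ * (k * u * k⁻¹) * k = u := by group
    rwa [this]
  have h3 : k * u * k⁻¹ ∈ (k • Q').1 := by
    rw [coe_smul, mem_cj]
    have : k⁻¹ * (k * u * k⁻¹) * k = u := by group
    rwa [this]
  rw [hkQ] at h2
  have h4 : k * u * k⁻¹ ≠ 1 := by
    intro h5
    apply h1
    have : k⁻¹ * (k * u * k⁻¹) * k = u := by group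
    rw [← this, h5]
    group
  have h5 := h.ti_aux h2 h3 h4
  rw [← h5] at hkQ
  exact smul_left_cancel k hkQ

omit [Finite Γ] in
theorem smul_P0 (h : Ctx1 T U1 U2 z K) {t : Γ} (ht : t ∈ T) : (have := h.normal; t • h.P0 = h.P0) := by
  have hK := h.normal
  change t • h.P0 = h.P0
  rw [smul_eq_iff]
  intro x hx
  change x ∈ U1 at hx
  change _ ∈ U1
  rw [← h.eq] at hx ⊢
  refine ⟨T.mul_mem (T.mul_mem (T.inv_mem ht) hx.1) ht, ?_⟩
  have := hK.conj_mem _ hx.2 t⁻¹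
  rwa [inv_inv] at this

/-- fixed points of the distinguished elements -/
theorem fix_dist (h : Ctx1 T U1 U2 z K) {t : Γ} (ht : t ∈ U1 ∨ t ∈ U2) (h1 : t ≠ 1) {Q : Om K}
    (hQ : have := h.normal; t • Q = Q) : Q = h.P0 := by
  have hK := h.normal
  change t • Q = Q at hQ
  rw [smul_eq_iff] at hQ
  have htT : t ∈ T := by
    rcases ht with h2 | h2
    · exact h.le1 h2
    · exact h.le2 h2
  obtain ⟨u, hu, hu1, htu⟩ := exists_comm Q.card (h.exp t htT) hQ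
  have h2 : IsPGroup 3 ↥(zpowers z ⊔ zpowers u) := by
    have hp : ∀ {w : Γ}, w ^ 3 = 1 → IsPGroup 3 (zpowers w) := by
      intro w hw
      rintro ⟨x, hx⟩
      obtain ⟨i, rfl⟩ := mem_zpowers_iff.1 hx
      refine ⟨1, Subtype.ext ?_⟩
      change (w ^ i) ^ (3 ^ 1) = 1
      rw [pow_one, ← zpow_natCast, ← zpow_mul, mul_comm, zpow_mul, zpow_natCast, hw, one_zpow]
    have hu3 : IsPGroup 3 (zpowers u) := (pgroup_of_nine Q.card).to_le (zpowers_le.2 hu)
    apply h.tri t ht h1 _ _ (hp (h.exp z h.z_mem)) hu3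
    · rw [zpowers_le]
      exact mem_centralizer_singleton_iff.2 (h.z_comm t htT).symm
    · rw [zpowers_le]
      exact mem_centralizer_singleton_iff.2 htu.symm
  have h3 : zpowers z ⊔ zpowers u ≤ K := sup_le (zpowers_le.2 h.z_memK) (zpowers_le.2 (Q.le hu))
  obtain ⟨Q', hQ'⟩ := exists_ge h.nine_dvd h.not_27 h2 h3
  have h4 : z ∈ Q'.1 := hQ' (mem_sup_left (mem_zpowers z))
  have h5 : u ∈ Q'.1 := hQ' (mem_sup_right (mem_zpowers u))
  have h6 := h.ti_aux h.z_mem1 h4 h.z_ne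
  rw [h6] at h5
  exact h.ti_aux h5 hu hu1

end Ctx1

end Cfsg.Agent.H536.Nine
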