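import Cfsg.Agent.H536.Nine.Nrm

/-!
# S5227, section A: `|T ∩ K| ≠ 9`, part 10 (helper536): `|N_K(P)| = 72`
-/

set_option autoImplicit false

namespace Cfsg.Agent.H536.Nine

open Subgroup Cfsg.Agent.H776.Co

universe u

variable {Γ : Type u} [Group Γ] {T U1 U2 K : Subgroup Γ} {z : Γ}

theorem Q4.taui_unique : ∀ g : Q4, Q4.mul Q4.tau g = Q4.one → g = Q4.taui := by decide +kernel

namespace Half

theorem exists_u (h : Half T U1 U2 z) : ∃ u, Bas U1 z u ∧ ∃ t ∈ T, t * u * t⁻¹ = z * u := by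
  obtain ⟨u, hu, huz⟩ : ∃ u ∈ U1, u ∉ zpowers z := by
    by_contra hne
    push Not at hne
    have hfin : Finite (zpowers z) := Nat.finite_of_card_ne_zero (by rw [h.card_z]; norm_num)
    have h8 := card_le_of_le (fun x hx => hne x hx : U1 ≤ zpowers z)
    rw [h.card1, h.card_z] at h8
    omega
  obtain ⟨t0, ht0, ht0u⟩ : ∃ t ∈ T, t ∉ U1 := by
    by_contra hne
    push Not at hne
    have hfin : Finite U1 := Nat.finite_of_card_ne_zero (by rw [h.card1]; norm_num)
    have h8 := card_le_of_le (fun x hx => hne x hx : T ≤ U1)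
    rw [h.card1, h.card_T] at h8
    omega
  refine ⟨u, ⟨h.card1, h.z_mem1, hu, h.exp z h.z_mem, h.exp u (h.le1 hu), h.z_ne, huz⟩, ?_⟩
  have h1 := h.not_comm h.le1 h.card1 ht0 ht0u hu huz
  obtain ⟨i, hi⟩ := mem_zpowers_iff.1 (h.comm_mem ht0 (h.le1 hu))
  rw [← zpow_mod_orderOf, h.order_z] at hi
  have h2 : i % ((3 : ℕ) : ℤ) = 0 ∨ i % ((3 : ℕ) : ℤ) = 1 ∨ i % ((3 : ℕ) : ℤ) = 2 := by omega
  rcases h2 with h2 | h2 | h2
  · exfalso
    apply h1
    rw [h2, zpow_zero] at hi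
    calc t0 * u = (t0 * u * t0⁻¹ * u⁻¹) * (u * t0) := by group
      _ = u * t0 := by rw [← hi, one_mul]
  · refine ⟨t0, ht0, ?_⟩
    rw [h2, zpow_one] at hi
    calc t0 * u * t0⁻¹ = (t0 * u * t0⁻¹ * u⁻¹) * u := by group
      _ = z * u := by rw [← hi]
  · refine ⟨t0⁻¹, T.inv_mem ht0, ?_⟩
    rw [h2] at hi
    have h3 : z ^ (2 : ℤ) = z⁻¹ := by
      have h4 := h.exp z h.z_mem
      rw [eq_inv_iff_mul_eq_one, ← zpow_add_one, ← h4]
      exact zpow_natCast z 3
    rw [h3] at hi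
    have h4 : t0 * u * t0⁻¹ = z⁻¹ * u := by
      calc t0 * u * t0⁻¹ = (t0 * u * t0⁻¹ * u⁻¹) * u := by group
        _ = z⁻¹ * u := by rw [← hi]
    have h5 : u = t0⁻¹ * (z⁻¹ * u) * t0 := by rw [← h4]; group
    have h6 : t0⁻¹ * z⁻¹ = z⁻¹ * t0⁻¹ := by
      have h7 := h.z_comm t0 ht0
      rw [← mul_inv_rev, ← mul_inv_rev, h7]
    calc t0⁻¹ * u * t0⁻¹⁻¹ = z * (z⁻¹ * t0⁻¹) * u * t0 := by group
      _ = z * (t0⁻¹ * z⁻¹) * u * t0 := by rw [h6]
      _ = z * (t0⁻¹ * (z⁻¹ * u) * t0) := by group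
      _ = z * u := by rw [← h5]

end Half

namespace Ctx1

theorem conj_mem_of_fix (h : Ctx1 T U1 U2 z K) {g : Γ} (hg : have := h.normal; g • h.P0 = h.P0) :
    ∀ x ∈ U1, g * x * g⁻¹ ∈ U1 := by
  have hK := h.normal
  intro x hx
  have h1 : g * x * g⁻¹ ∈ (g • h.P0).1 := by
    rw [coe_smul, mem_cj]
    have : g⁻¹ * (g * x * g⁻¹) * g = x := by group
    rw [this]
    exact hx
  have h2 : g • h.P0 = h.P0 := hg
  rw [h2] at h1
  exact h1

variable [Finite Γ]

theorem fix_pow (h : Ctx1 T U1 U2 z K) {g : Γ} (hgK : g ∈ K) (hg : have := h.normal; g • h.P0 = h.P0)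
    (h3 : g ^ 3 ∈ U1) : g ∈ U1 := by
  have hK := h.normal
  have : Fact (Nat.Prime 3) := ⟨Nat.prime_three⟩
  have h1 : g ^ 9 = 1 := by
    have h2 := h.exp _ (h.le1 h3)
    rw [← pow_mul] at h2
    exact h2
  have hp : IsPGroup 3 (zpowers g) := by
    rintro ⟨x, hx⟩
    obtain ⟨i, rfl⟩ := mem_zpowers_iff.1 hx
    refine ⟨2, Subtype.ext ?_⟩
    change (g ^ i) ^ (3 ^ 2) = 1
    rw [← zpow_natCast, ← zpow_mul, mul_comm, zpow_mul, zpow_natCast]
    norm_num [h1]
  have h2 : IsPGroup 3 ↥(zpowers g ⊔ U1) := by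
    apply hp.to_sup_of_normal_right' (pgroup_of_nine h.card1)
    rw [zpowers_le]
    rw [mem_normalizer_iff]
    intro x
    constructor
    · exact h.conj_mem_of_fix hg x
    · intro hx
      have hg' : g⁻¹ • h.P0 = h.P0 := by
        have h4 : g • h.P0 = h.P0 := hg
        rw [inv_smul_eq_iff, h4]
      have h5 := h.conj_mem_of_fix hg' _ hx
      have h6 : g⁻¹ * (g * x * g⁻¹) * g⁻¹⁻¹ = x := by group
      rwa [h6] at h5
  have h4 : zpowers g ⊔ U1 ≤ K := sup_le (zpowers_le.2 hgK) h.le_K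
  have h5 := eq_of_pgroup h.nine_dvd h.not_27 h2 h4 (Q := h.P0) le_sup_right
  have h6 : g ∈ zpowers g ⊔ U1 := mem_sup_left (mem_zpowers g)
  rw [h5] at h6
  exact h6

/-- `|N_K(P)| = 72` -/
theorem card_stab (h : Ctx1 T U1 U2 z K) : (have := h.normal; Nat.card (MulAction.stabilizer K h.P0) = 72) := by
  have hK := h.normal
  change Nat.card (MulAction.stabilizer K h.P0) = 72
  obtain ⟨u, hB, t, ht, htu⟩ := h.exists_u
  set N := MulAction.stabilizer K h.P0 with hN
  have hfix : ∀ n : N, (((n : K) : Γ) : Γ) • h.P0 = h.P0 := fun n => n.2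
  have hconj : ∀ n : N, ∀ x ∈ U1, ((n : K) : Γ) * x * ((n : K) : Γ)⁻¹ ∈ U1 := fun n => h.conj_mem_of_fix (hfix n)
  have htfix : t • h.P0 = h.P0 := h.smul_P0 ht
  have htfix' : t⁻¹ • h.P0 = h.P0 := h.smul_P0 (T.inv_mem ht)
  have htc := h.conj_mem_of_fix htfix
  have htc' := h.conj_mem_of_fix htfix'
  -- the matrices of `t`
  have hmt : mat z u t = Q4.tau := by
    unfold mat
    have h1 : t * z * t⁻¹ = el z u (1, 0) := by rw [Bas.el_10, h.z_comm t ht]; group
    have h2 : t * u * t⁻¹ = el z u (1, 1) := by rw [Bas.el_11, htu]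
    rw [h1, h2, hB.co_el, hB.co_el]
    rfl
  have hmt' : mat z u t⁻¹ = Q4.taui := by
    apply Q4.taui_unique
    rw [← hmt, ← hB.mat_mul htc' htc, inv_mul_cancel, hB.mat_one]
  -- the set of matrices
  have hS : Set.range (fun n : N => mat z u ((n : K) : Γ)) = (Q4.q8 : Set Q4) := by
    apply Q4.eq_q8
    · exact ⟨1, hB.mat_one⟩
    · rintro _ ⟨n, rfl⟩ _ ⟨k, rfl⟩
      refine ⟨k * n, ?_⟩
      exact hB.mat_mul (hconj k) (hconj n)
    · rintro _ ⟨n, rfl⟩
      have h1 : t * ((n : K) : Γ) * t⁻¹ ∈ K := hK.conj_mem _ (n : K).2 t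
      have h2 : (t * ((n : K) : Γ) * t⁻¹) • h.P0 = h.P0 := by
        rw [mul_smul, mul_smul, htfix', hfix n, htfix]
      refine ⟨⟨⟨_, h1⟩, h2⟩, ?_⟩
      change mat z u (t * ((n : K) : Γ) * t⁻¹) = _
      rw [mul_assoc, hB.mat_mul htc, hB.mat_mul (hconj n) htc', hmt, hmt']
      intro x hx
      have h3 := hconj n _ (htc' x hx)
      have h4 : ((n : K) : Γ) * t⁻¹ * x * (((n : K) : Γ) * t⁻¹)⁻¹ =
        ((n : K) : Γ) * (t⁻¹ * x * t⁻¹⁻¹) * ((n : K) : Γ)⁻¹ := by group
      rw [h4]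
      exact h3
    · rintro _ ⟨n, rfl⟩
      apply Q4.det_ne (mat z u ((n⁻¹ : N) : K))
      rw [← hB.mat_mul (hconj n) (hconj n⁻¹)]
      have h1 : ((n : K) : Γ) * (((n⁻¹ : N) : K) : Γ) = 1 := by
        rw [← Subgroup.coe_mul, ← Subgroup.coe_mul, mul_inv_cancel]
        rfl
      rw [h1, hB.mat_one]
    · rintro _ ⟨n, rfl⟩ h3
      change Q4.mul (mat z u ((n : K) : Γ)) (Q4.mul (mat z u ((n : K) : Γ)) (mat z u ((n : K) : Γ))) = Q4.one at h3
      have h4 : mat z u (((n * n * n : N) : K) : Γ) = Q4.one := by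
        rw [← h3]
        have h5 : (((n * n * n : N) : K) : Γ) = (((n * n : N) : K) : Γ) * ((n : K) : Γ) := rfl
        rw [h5, hB.mat_mul (hconj _) (hconj n)]
        have h6 : (((n * n : N) : K) : Γ) = ((n : K) : Γ) * ((n : K) : Γ) := rfl
        rw [h6, hB.mat_mul (hconj n) (hconj n)]
      have h5 := hB.comm_of_mat (hconj _) h4
      have h6 : (((n * n * n : N) : K) : Γ) ∈ T ⊓ K := by
        apply h.ctr (n * n * n : N).1.2
        intro x hx
        rw [h.eq] at hx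
        exact h5 x hx
      rw [h.eq] at h6
      have h7 : ((n : K) : Γ) ^ 3 ∈ U1 := by
        have h8 : (((n * n * n : N) : K) : Γ) = ((n : K) : Γ) ^ 3 := by
          rw [pow_succ, pow_two]
          rfl
        rwa [h8] at h6
      have h8 := h.fix_pow (n : K).2 (hfix n) h7
      exact hB.mat_of_comm fun x hx => comm_of_nine h.card1 hx h8
    · obtain ⟨n, hn, hnP, hnz⟩ := h.irr
      rw [h.eq] at hnP
      have hnfix : n • h.P0 = h.P0 := by
        apply Om.ext
        have hfin : Finite (cj n U1) := Nat.finite_of_card_ne_zero (by rw [card_cj, h.card1]; norm_num)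
        rw [coe_smul]
        apply eq_of_le_of_card_ge
        · intro x hx
          rw [mem_cj] at hx
          have h1 := hnP _ hx
          have h2 : n * (n⁻¹ * x * n) * n⁻¹ = x := by group
          rwa [h2] at h1
        · rw [card_cj]
      refine ⟨_, ⟨⟨⟨n, hn⟩, hnfix⟩, rfl⟩, ?_⟩
      change (co z u (n * z * n⁻¹)).2 ≠ 0
      intro h0
      apply hnz
      have h1 := hB.el_co (hnP z h.z_mem1)
      rw [← h1]
      unfold el
      rw [h0, ZMod.val_zero, pow_zero, mul_one]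
      exact (zpowers z).pow_mem (mem_zpowers z) _
  -- count
  set U : Subgroup N := (U1.subgroupOf K).subgroupOf N with hU
  have hUN : U1.subgroupOf K ≤ N := by
    rintro ⟨x, hxK⟩ hx
    rw [mem_subgroupOf] at hx
    exact h.smul_P0 (h.le1 hx)
  have hUc : Nat.card U = 9 := by
    rw [hU, Nat.card_congr (subgroupOfEquivOfLe hUN).toEquiv, Nat.card_congr (subgroupOfEquivOfLe h.le_K).toEquiv, h.card1]
  have hker : ∀ n k : N, mat z u ((n : K) : Γ) = mat z u ((k : K) : Γ) ↔ n⁻¹ * k ∈ U := by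
    intro n k
    have hmem : ∀ w : N, w ∈ U ↔ ((w : K) : Γ) ∈ U1 := fun w => Iff.rfl
    have hmul : ∀ w v : N, mat z u (((w * v : N) : K) : Γ) = Q4.mul (mat z u ((v : K) : Γ)) (mat z u ((w : K) : Γ)) := by
      intro w v
      exact hB.mat_mul (hconj w) (hconj v)
    have hone : ∀ w : N, w ∈ U ↔ mat z u ((w : K) : Γ) = Q4.one := by
      intro w
      rw [hmem]
      constructor
      · intro hw
        exact hB.mat_of_comm fun x hx => comm_of_nine h.card1 hx hw
      · intro hw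
        have h5 := hB.comm_of_mat (hconj _) hw
        have h6 : ((w : K) : Γ) ∈ T ⊓ K := by
          apply h.ctr (w : K).2
          intro x hx
          rw [h.eq] at hx
          exact h5 x hx
        rwa [h.eq] at h6
    rw [hone, hmul]
    constructor
    · intro h1
      rw [← h1, ← hmul, inv_mul_cancel]
      exact hB.mat_one
    · intro h1
      have h2 : k = n * (n⁻¹ * k) := by group
      have h3 : mat z u ((k : K) : Γ) = mat z u (((n * (n⁻¹ * k) : N) : K) : Γ) := by rw [← h2]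
      rw [h3, hmul, hmul, h1]
      generalize mat z u ((n : K) : Γ) = g
      revert g
      decide +kernel
  have hidx : U.index = 8 := by
    have h1 : Nat.card (Set.range (fun n : N => mat z u ((n : K) : Γ))) = 8 := by
      rw [hS, Nat.card_coe_set_eq, Set.ncard_coe_finset, Q4.card_q8]
    rw [← h1, index]
    apply Nat.card_congr
    refine Equiv.ofBijective (Quotient.lift (s := QuotientGroup.leftRel U)
      (fun n : N => (⟨mat z u ((n : K) : Γ), n, rfl⟩ : Set.range (fun n : N => mat z u ((n : K) : Γ)))) ?_) ⟨?_, ?_⟩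
    · intro a b hab
      exact Subtype.ext ((hker a b).2 (QuotientGroup.leftRel_apply.1 hab))
    · rintro ⟨a⟩ ⟨b⟩ hab
      exact Quotient.sound (QuotientGroup.leftRel_apply.2 ((hker a b).1 (congrArg Subtype.val hab)))
    · rintro ⟨_, n, rfl⟩
      exact ⟨Quotient.mk _ n, rfl⟩
  have h1 := U.card_mul_index
  rw [hUc, hidx] at h1
  exact h1.symm

/-- `|K| = 72 m` -/
theorem card_K (h : Ctx1 T U1 U2 z K) : Nat.card K = 72 * Nat.card (Om K) := by
  have hK := h.normal
  have h1 := MulAction.index_stabilizer (G := K) h.P0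
  have h2 : MulAction.orbit K h.P0 = Set.univ := by
    ext Q
    simp only [Set.mem_univ, iff_true]
    obtain ⟨k, hk, hkQ⟩ := exists_smul h.nine_dvd h.not_27 h.P0 Q
    exact ⟨⟨k, hk⟩, hkQ⟩
  rw [h2, Set.ncard_univ] at h1
  have h3 := (MulAction.stabilizer K h.P0).card_mul_index
  have h4 : Nat.card (MulAction.stabilizer K h.P0) = 72 := h.card_stab
  rw [h1, h4] at h3
  exact h3.symm

end Ctx1

end Cfsg.Agent.H536.Nine
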