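import Cfsg.Agent.H536.Nine.Burn
import Cfsg.Agent.H536.Nine.Nrm2

/-!
# S5227, section A: `|T ∩ K| ≠ 9`, part 11 (helper536): the theorem, with S5303 and the list of orders as hypotheses
-/

set_option autoImplicit false

namespace Cfsg.Agent.H536.Nine

open Subgroup Cfsg.Agent.H776.Co

universe u

variable {Γ : Type u} [Group Γ] {T U1 U2 K : Subgroup Γ} {z : Γ}

theorem Ctx1.false_of [Finite Γ] (h : Ctx1 T U1 U2 z K)
    (hno : ∀ m : ℕ, Nat.card K = 72 * m → m % 27 = 1 ∨ m % 27 = 19 →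
      Nat.card K ∣ 2 ^ 13 * 3 ^ 2 * 5 * 7 * 11 ^ 2 * 13 ^ 2 → False) : False := by
  apply hno _ h.card_K h.mod_27
  obtain ⟨k, hk⟩ := h.nine_dvd
  have h3 : ¬ 3 ∣ k := by
    rintro ⟨j, rfl⟩
    apply h.not_27
    rw [hk]
    exact ⟨j, by ring⟩
  have h1 : Nat.card K ∣ 2 ^ 13 * 3 ^ 3 * 5 * 7 * 11 ^ 2 * 13 ^ 2 := (K.card_subgroup_dvd_card).trans h.ord
  rw [hk] at h1 ⊢
  have h2 : k ∣ 3 * (2 ^ 13 * 5 * 7 * 11 ^ 2 * 13 ^ 2) := by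
    apply Nat.dvd_of_mul_dvd_mul_left (by norm_num : 0 < 9)
    have h6 : 9 * (3 * (2 ^ 13 * 5 * 7 * 11 ^ 2 * 13 ^ 2)) = 2 ^ 13 * 3 ^ 3 * 5 * 7 * 11 ^ 2 * 13 ^ 2 := by norm_num
    rw [h6]
    exact h1
  have h4 : Nat.Coprime k 3 := (Nat.coprime_comm.1 ((Nat.Prime.coprime_iff_not_dvd Nat.prime_three).2 h3))
  have h5 := mul_dvd_mul_left 9 (h4.dvd_of_dvd_mul_left h2)
  have h6 : 9 * (2 ^ 13 * 5 * 7 * 11 ^ 2 * 13 ^ 2) = 2 ^ 13 * 3 ^ 2 * 5 * 7 * 11 ^ 2 * 13 ^ 2 := by norm_num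
  rw [h6] at h5
  exact h5

theorem Ctx.false_of [Finite Γ] (h : Ctx T U1 U2 z K)
    (hno : ∀ m : ℕ, Nat.card K = 72 * m → m % 27 = 1 ∨ m % 27 = 19 →
      Nat.card K ∣ 2 ^ 13 * 3 ^ 2 * 5 * 7 * 11 ^ 2 * 13 ^ 2 → False) : False := by
  rcases Ctx1.of_ctx h with h1 | h1
  · exact h1.false_of hno
  · exact h1.false_of hno

/-- the irreducibility (S5303) in the form which is needed -/
theorem irr_of [Finite Γ] (h : Half T U1 U2 z) (hK : K.Normal) (h9 : Nat.card ↥(T ⊓ K) = 9) (hz : z ∈ K)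
    (hirr : ∀ (S : Sylow 3 K), (S : Subgroup K) ≠ ⊥ → IsMulCommutative (S : Subgroup K) → ∀ Ω : Subgroup K,
      (∀ x : K, x ∈ Ω ↔ x ∈ (S : Subgroup K) ∧ x ^ 3 = 1) →
      (∀ B : Subgroup K, B ≤ Ω → (∀ n ∈ Subgroup.normalizer ((S : Subgroup K) : Set K), ∀ b ∈ B, n * b * n⁻¹ ∈ B) →
        B = ⊥ ∨ B = Ω)) :
    ∃ n ∈ K, (∀ x ∈ T ⊓ K, n * x * n⁻¹ ∈ T ⊓ K) ∧ n * z * n⁻¹ ∉ zpowers z := by
  have : Fact (Nat.Prime 3) := ⟨Nat.prime_three⟩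
  have h9K := Nine.nine_dvd (K := K) h9
  have h27 := Nine.not_27 h.card_T h.syl h.exp h9
  set Q : Om K := ⟨T ⊓ K, inf_le_right, h9⟩ with hQ
  set S := Q.toSylow h9K h27 with hS
  have hSQ : (S : Subgroup K) = (T ⊓ K).subgroupOf K := Q.coe_toSylow h9K h27
  have hmem : ∀ x : K, x ∈ (S : Subgroup K) ↔ (x : Γ) ∈ T ⊓ K := by
    intro x
    rw [hSQ]
    exact mem_subgroupOf
  by_contra hne
  push Not at hne
  have hSne : (S : Subgroup K) ≠ ⊥ := by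
    intro h1
    have h2 : (⟨z, hz⟩ : K) ∈ (S : Subgroup K) := (hmem _).2 ⟨h.z_mem, hz⟩
    rw [h1, mem_bot] at h2
    exact h.z_ne (congrArg Subtype.val h2)
  have hSc : IsMulCommutative (S : Subgroup K) := by
    refine ⟨⟨fun a b => ?_⟩⟩
    have ha := (hmem a).1 a.2
    have hb := (hmem b).1 b.2
    exact Subtype.ext (Subtype.ext (comm_of_nine h9 ha hb))
  have h1 := hirr S hSne hSc S (fun x => ⟨fun hx => ⟨hx, Subtype.ext (h.exp x ((hmem x).1 hx).1)⟩, fun hx => hx.1⟩)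
    ((zpowers z).subgroupOf K) (by
      intro x hx
      rw [mem_subgroupOf] at hx
      rw [hmem]
      exact ⟨(zpowers_le.2 h.z_mem) hx, x.2⟩) (by
      rintro ⟨n, hnK⟩ hn ⟨b, hbK⟩ hb
      rw [mem_subgroupOf] at hb ⊢
      have h2 : ∀ x ∈ T ⊓ K, n * x * n⁻¹ ∈ T ⊓ K := by
        intro x hx
        have h3 : (⟨x, hx.2⟩ : K) ∈ (S : Subgroup K) := (hmem _).2 hx
        have h4 := (mem_normalizer_iff.1 hn ⟨x, hx.2⟩).1 h3
        exact (hmem _).1 h4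
      have h3 := hne n hnK h2
      obtain ⟨i, hi⟩ := mem_zpowers_iff.1 hb
      change z ^ i = b at hi
      change n * b * n⁻¹ ∈ zpowers z
      rw [← hi, ← conj_zpow]
      exact (zpowers z).zpow_mem h3 i)
  rcases h1 with h2 | h2
  · have h3 : (⟨z, hz⟩ : K) ∈ (zpowers z).subgroupOf K := mem_subgroupOf.2 (mem_zpowers z)
    rw [h2, mem_bot] at h3
    exact h.z_ne (congrArg Subtype.val h3)
  · have h3 : Nat.card ((zpowers z).subgroupOf K) = Nat.card (S : Subgroup K) := by rw [h2]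
    rw [Nat.card_congr (subgroupOfEquivOfLe (zpowers_le.2 hz)).toEquiv, h.card_z, hSQ,
      Nat.card_congr (subgroupOfEquivOfLe inf_le_right).toEquiv, h9] at h3
    norm_num at h3

/-- the theorem with hypotheses -/
theorem card_inf_ne_of [Finite Γ] (h : Loc T U1 U2 z ⊥) (hK : K.Normal) (hz : z ∈ K)
    (hirr : ∀ (S : Sylow 3 K), (S : Subgroup K) ≠ ⊥ → IsMulCommutative (S : Subgroup K) → ∀ Ω : Subgroup K,
      (∀ x : K, x ∈ Ω ↔ x ∈ (S : Subgroup K) ∧ x ^ 3 = 1) →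
      (∀ B : Subgroup K, B ≤ Ω → (∀ n ∈ Subgroup.normalizer ((S : Subgroup K) : Set K), ∀ b ∈ B, n * b * n⁻¹ ∈ B) →
        B = ⊥ ∨ B = Ω))
    (hno : ∀ m : ℕ, Nat.card K = 72 * m → m % 27 = 1 ∨ m % 27 = 19 →
      Nat.card K ∣ 2 ^ 13 * 3 ^ 2 * 5 * 7 * 11 ^ 2 * 13 ^ 2 → False) : Nat.card ↥(T ⊓ K) ≠ 9 := by
  intro h9
  have h' := Half.of_loc h
  exact Ctx.false_of ⟨h', hK, h9, hz, irr_of h' hK h9 hz hirr⟩ hno

end Cfsg.Agent.H536.Nine
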