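import Mathlib

/-!
# S5227, section A: `|T ∩ K| ≠ 9`, part 4 (helper536): the quaternion subgroup of `GL(2,3)`
-/

set_option autoImplicit false

namespace Cfsg.Agent.H536.Nine

/-- 2×2-matrices -/
abbrev Q4 := ZMod 3 × ZMod 3 × ZMod 3 × ZMod 3

namespace Q4

/-- product -/
def mul (g h : Q4) : Q4 :=
  (g.1 * h.1 + g.2.1 * h.2.2.1, g.1 * h.2.1 + g.2.1 * h.2.2.2, g.2.2.1 * h.1 + g.2.2.2 * h.2.2.1,
    g.2.2.1 * h.2.1 + g.2.2.2 * h.2.2.2)

/-- unit -/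
def one : Q4 := (1, 0, 0, 1)

/-- the unipotent matrix -/
def tau : Q4 := (1, 0, 1, 1)

/-- its inverse -/
def taui : Q4 := (1, 0, 2, 1)

/-- `w` does not have order 3 -/
def Ok (w : Q4) : Prop := mul w (mul w w) = one → w = one

instance (w : Q4) : Decidable (Ok w) := by unfold Ok; infer_instance

/-- the quaternion group -/
def q8 : Finset Q4 :=
  {(0, 1, 2, 0), (0, 2, 1, 0), (1, 0, 0, 1), (1, 1, 1, 2), (1, 2, 2, 2), (2, 0, 0, 2), (2, 1, 1, 1), (2, 2, 2, 1)}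

theorem card_q8 : q8.card = 8 := by decide

theorem mem_q8 : ∀ g : Q4, g.1 * g.2.2.2 - g.2.1 * g.2.2.1 ≠ 0 → Ok g → Ok (mul g g) →
    Ok (mul (mul (mul taui g) tau) g) → Ok (mul (mul (mul (mul taui g) tau) g) (mul (mul (mul taui g) tau) g)) → g ∈ q8 := by
  decide +kernel

theorem gen_q8 : ∀ g ∈ q8, g.2.1 ≠ 0 → ∀ q ∈ q8, q = one ∨ q = g ∨ q = mul g g ∨ q = mul (mul g g) g ∨
    q = mul (mul taui g) tau ∨ q = mul (mul g g) (mul (mul taui g) tau) ∨ q = mul g (mul (mul taui g) tau) ∨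
    q = mul (mul (mul taui g) tau) g := by
  decide +kernel

theorem eq_q8 (S : Set Q4) (h1 : one ∈ S) (hm : ∀ g ∈ S, ∀ h ∈ S, mul g h ∈ S) (ht : ∀ g ∈ S, mul (mul taui g) tau ∈ S)
    (hd : ∀ g ∈ S, g.1 * g.2.2.2 - g.2.1 * g.2.2.1 ≠ 0) (ho : ∀ g ∈ S, Ok g) (hb : ∃ g ∈ S, g.2.1 ≠ 0) : S = (q8 : Set Q4) := by
  have hle : ∀ g ∈ S, g ∈ q8 := by
    intro g hg
    have h2 := hm _ (ht g hg) g hg
    exact mem_q8 g (hd g hg) (ho g hg) (ho _ (hm g hg g hg)) (ho _ h2) (ho _ (hm _ h2 _ h2))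
  apply Set.Subset.antisymm
  · intro g hg
    exact hle g hg
  · intro q hq
    obtain ⟨g, hg, hgb⟩ := hb
    have h2 := ht g hg
    have h3 := hm g hg g hg
    rcases gen_q8 g (hle g hg) hgb q hq with h | h | h | h | h | h | h | h
    · rw [h]; exact h1
    · rw [h]; exact hg
    · rw [h]; exact h3
    · rw [h]; exact hm _ h3 _ hg
    · rw [h]; exact h2
    · rw [h]; exact hm _ h3 _ h2
    · rw [h]; exact hm _ hg _ h2
    · rw [h]; exact hm _ h2 _ hg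

end Q4

end Cfsg.Agent.H536.Nine
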