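import Cfsg.Agent.H536.Nine.Fix
import Cfsg.Agent.H536.Nine.Mat

/-!
# S5227, section A: `|T ∩ K| ≠ 9`, part 9 (helper536): `|N_K(P)| = 72`
-/

set_option autoImplicit false

namespace Cfsg.Agent.H536.Nine

open Subgroup Cfsg.Agent.H776.Co

universe u

variable {Γ : Type u} [Group Γ] {T U1 U2 K : Subgroup Γ} {z : Γ}

/-! ### Coordinates -/

/-- the element with the coordinates `p` -/
def el (z u : Γ) (p : ZMod 3 × ZMod 3) : Γ := z ^ p.1.val * u ^ p.2.val

theorem pow_val_add {x : Γ} (hx : x ^ 3 = 1) (a b : ZMod 3) : x ^ (a + b).val = x ^ a.val * x ^ b.val := by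
  rw [← pow_add, ZMod.val_add, ← pow_mod_orderOf, ← pow_mod_orderOf x (a.val + b.val)]
  congr 1
  exact Nat.mod_mod_of_dvd _ (orderOf_dvd_of_pow_eq_one hx)

theorem pow_val_mul {x : Γ} (hx : x ^ 3 = 1) (a b : ZMod 3) : x ^ (a * b).val = (x ^ a.val) ^ b.val := by
  rw [← pow_mul, ZMod.val_mul, ← pow_mod_orderOf, ← pow_mod_orderOf x (a.val * b.val)]
  congr 1
  exact Nat.mod_mod_of_dvd _ (orderOf_dvd_of_pow_eq_one hx)

section

variable {u : Γ} (hz : z ^ 3 = 1) (hu : u ^ 3 = 1) (hzu : Commute z u)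

include hz hu hzu in
theorem el_add (p q : ZMod 3 × ZMod 3) : el z u (p + q) = el z u p * el z u q := by
  unfold el
  rw [Prod.fst_add, Prod.snd_add, pow_val_add hz, pow_val_add hu]
  have h1 : u ^ p.2.val * z ^ q.1.val = z ^ q.1.val * u ^ p.2.val := ((hzu.pow_pow _ _).eq).symm
  calc z ^ p.1.val * z ^ q.1.val * (u ^ p.2.val * u ^ q.2.val)
      = z ^ p.1.val * (z ^ q.1.val * u ^ p.2.val) * u ^ q.2.val := by simp only [mul_assoc]
    _ = z ^ p.1.val * (u ^ p.2.val * z ^ q.1.val) * u ^ q.2.val := by rw [h1]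
    _ = _ := by simp only [mul_assoc]

include hz hu hzu in
theorem el_pow (p : ZMod 3 × ZMod 3) (a : ZMod 3) : (el z u p) ^ a.val = el z u (p.1 * a, p.2 * a) := by
  unfold el
  rw [pow_val_mul hz, pow_val_mul hu, (hzu.pow_pow _ _).mul_pow]

include hz hu hzu in
/-- conjugation in coordinates -/
theorem conj_el {g : Γ} {r s : ZMod 3 × ZMod 3} (hr : g * z * g⁻¹ = el z u r) (hs : g * u * g⁻¹ = el z u s)
    (p : ZMod 3 × ZMod 3) : g * el z u p * g⁻¹ = el z u (p.1 * r.1 + p.2 * s.1, p.1 * r.2 + p.2 * s.2) := by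
  have h1 : g * el z u p * g⁻¹ = (g * z * g⁻¹) ^ p.1.val * (g * u * g⁻¹) ^ p.2.val := by
    rw [conj_pow, conj_pow]
    unfold el
    group
  rw [h1, hr, hs, el_pow hz hu hzu, el_pow hz hu hzu, ← el_add hz hu hzu]
  congr 1
  ext
  · simp only [Prod.fst_add]; ring
  · simp only [Prod.snd_add]; ring

end

namespace Q4

theorem det_ne : ∀ g h : Q4, mul g h = one → h.1 * h.2.2.2 - h.2.1 * h.2.2.1 ≠ 0 := by
  intro g h hgh h0
  have h1 : (g.1 * g.2.2.2 - g.2.1 * g.2.2.1) * (h.1 * h.2.2.2 - h.2.1 * h.2.2.1) =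
      (mul g h).1 * (mul g h).2.2.2 - (mul g h).2.1 * (mul g h).2.2.1 := by
    unfold mul
    ring
  rw [hgh, h0, mul_zero] at h1
  revert h1
  decide

end Q4

/-- coordinates -/
noncomputable def co (z u x : Γ) : ZMod 3 × ZMod 3 := Function.invFun (el z u) x

/-- the matrix -/
noncomputable def mat (z u g : Γ) : Q4 :=
  ((co z u (g * z * g⁻¹)).1, (co z u (g * z * g⁻¹)).2, (co z u (g * u * g⁻¹)).1, (co z u (g * u * g⁻¹)).2)

/-- a basis of `U1` -/
structure Bas (U1 : Subgroup Γ) (z u : Γ) : Prop where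
  card : Nat.card U1 = 9
  hz : z ∈ U1
  hu : u ∈ U1
  z3 : z ^ 3 = 1
  u3 : u ^ 3 = 1
  z_ne : z ≠ 1
  not : u ∉ zpowers z

namespace Bas

variable {u : Γ}

theorem comm (h : Bas U1 z u) : Commute z u := comm_of_nine h.card h.hz h.hu

theorem el_mem (h : Bas U1 z u) (p : ZMod 3 × ZMod 3) : el z u p ∈ U1 :=
  U1.mul_mem (U1.pow_mem h.hz _) (U1.pow_mem h.hu _)

theorem eq_zero (h : Bas U1 z u) {p : ZMod 3 × ZMod 3} (hp : el z u p = 1) : p = 0 := by
  have h1 : p.2 = 0 := by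
    by_contra hne
    apply h.not
    -- `u ^ b ∈ ⟨z⟩`
    have h2 : u ^ p.2.val ∈ zpowers z := by
      have h3 : u ^ p.2.val = (z ^ p.1.val)⁻¹ := eq_inv_of_mul_eq_one_right hp
      rw [h3]
      exact (zpowers z).inv_mem ((zpowers z).pow_mem (mem_zpowers z) _)
    have h4 : (u ^ p.2.val) ^ (p.2⁻¹).val = u := by
      rw [← pow_val_mul h.u3, mul_inv_cancel₀ hne]
      have : (1 : ZMod 3).val = 1 := rfl
      rw [this, pow_one]
    rw [← h4]
    exact (zpowers z).pow_mem h2 _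
  have h2 : p.1 = 0 := by
    by_contra hne
    apply h.z_ne
    have h3 : z ^ p.1.val = 1 := by
      have h4 := hp
      unfold el at h4
      rw [h1] at h4
      simpa using h4
    have h4 : (z ^ p.1.val) ^ (p.1⁻¹).val = z := by
      rw [← pow_val_mul h.z3, mul_inv_cancel₀ hne]
      have : (1 : ZMod 3).val = 1 := rfl
      rw [this, pow_one]
    rw [← h4, h3, one_pow]
  exact Prod.ext h2 h1

theorem el_zero : el z u 0 = 1 := by
  unfold el
  simp

theorem inj (h : Bas U1 z u) : Function.Injective (el z u) := by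
  intro p q hpq
  have h1 : el z u (p - q) = 1 := by
    have h2 : el z u (p - q) * el z u q = el z u q := by
      rw [← el_add h.z3 h.u3 h.comm, sub_add_cancel, hpq]
    exact mul_eq_right.1 h2
  exact sub_eq_zero.1 (h.eq_zero h1)

theorem surj (h : Bas U1 z u) {x : Γ} (hx : x ∈ U1) : ∃ p, el z u p = x := by
  have hfin : Finite U1 := Nat.finite_of_card_ne_zero (by rw [h.card]; norm_num)
  have hinj : Function.Injective (fun p => (⟨el z u p, h.el_mem p⟩ : U1)) := by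
    intro p q hpq
    exact h.inj (congrArg Subtype.val hpq)
  have hb := (Nat.bijective_iff_injective_and_card (fun p => (⟨el z u p, h.el_mem p⟩ : U1))).2 ⟨hinj, by
    rw [h.card, Nat.card_prod, Nat.card_zmod]⟩
  obtain ⟨p, hp⟩ := hb.2 ⟨x, hx⟩
  exact ⟨p, congrArg Subtype.val hp⟩

theorem el_co (h : Bas U1 z u) {x : Γ} (hx : x ∈ U1) : el z u (co z u x) = x :=
  Function.invFun_eq (h.surj hx)

theorem co_el (h : Bas U1 z u) (p : ZMod 3 × ZMod 3) : co z u (el z u p) = p :=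
  h.inj (h.el_co (h.el_mem p))

theorem co_eq (h : Bas U1 z u) {x : Γ} {p : ZMod 3 × ZMod 3} (hx : x = el z u p) : co z u x = p := by
  rw [hx, h.co_el]

theorem el_10 : el z u (1, 0) = z := by
  unfold el
  have : (1 : ZMod 3).val = 1 := rfl
  simp [this]

theorem el_01 : el z u (0, 1) = u := by
  unfold el
  have : (1 : ZMod 3).val = 1 := rfl
  simp [this]

theorem el_11 : el z u (1, 1) = z * u := by
  unfold el
  have : (1 : ZMod 3).val = 1 := rfl
  simp [this]

/-- the matrix of a product -/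
theorem mat_mul (h : Bas U1 z u) {g k : Γ} (hg : ∀ x ∈ U1, g * x * g⁻¹ ∈ U1) (hk : ∀ x ∈ U1, k * x * k⁻¹ ∈ U1) :
    mat z u (g * k) = Q4.mul (mat z u k) (mat z u g) := by
  have key : ∀ x ∈ U1, co z u (g * k * x * (g * k)⁻¹) =
      ((co z u (k * x * k⁻¹)).1 * (co z u (g * z * g⁻¹)).1 + (co z u (k * x * k⁻¹)).2 * (co z u (g * u * g⁻¹)).1,
        (co z u (k * x * k⁻¹)).1 * (co z u (g * z * g⁻¹)).2 + (co z u (k * x * k⁻¹)).2 * (co z u (g * u * g⁻¹)).2) := by
    intro x hx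
    apply h.co_eq
    rw [← conj_el h.z3 h.u3 h.comm (h.el_co (hg z h.hz)).symm (h.el_co (hg u h.hu)).symm, h.el_co (hk x hx)]
    group
  unfold mat
  rw [key z h.hz, key u h.hu]
  rfl

theorem mat_one (h : Bas U1 z u) : mat z u 1 = Q4.one := by
  unfold mat
  have h1 : (1 : Γ) * z * 1⁻¹ = el z u (1, 0) := by rw [el_10]; group
  have h2 : (1 : Γ) * u * 1⁻¹ = el z u (0, 1) := by rw [el_01]; group
  rw [h1, h2, h.co_el, h.co_el]
  rfl

theorem mat_of_comm (h : Bas U1 z u) {g : Γ} (hg : ∀ x ∈ U1, x * g = g * x) : mat z u g = Q4.one := by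
  unfold mat
  have h1 : g * z * g⁻¹ = el z u (1, 0) := by rw [el_10, ← hg z h.hz]; group
  have h2 : g * u * g⁻¹ = el z u (0, 1) := by rw [el_01, ← hg u h.hu]; group
  rw [h1, h2, h.co_el, h.co_el]
  rfl

theorem comm_of_mat (h : Bas U1 z u) {g : Γ} (hg : ∀ x ∈ U1, g * x * g⁻¹ ∈ U1) (h1 : mat z u g = Q4.one) :
    ∀ x ∈ U1, x * g = g * x := by
  intro x hx
  unfold mat Q4.one at h1
  rw [Prod.mk.injEq, Prod.mk.injEq, Prod.mk.injEq] at h1
  obtain ⟨h2, h3, h4, h5⟩ := h1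
  have h6 := conj_el h.z3 h.u3 h.comm (h.el_co (hg z h.hz)).symm (h.el_co (hg u h.hu)).symm (co z u x)
  rw [h.el_co hx, h2, h3, h4, h5] at h6
  simp only [mul_one, mul_zero, add_zero, zero_add] at h6
  have h7 : g * x * g⁻¹ = x := by
    rw [h6]
    exact h.el_co hx
  calc x * g = (g * x * g⁻¹) * g := by rw [h7]
    _ = g * x := by group

end Bas

end Cfsg.Agent.H536.Nine
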