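import Cfsg.Agent.H536.Nine.Fix

/-!
# S5227, section A: `|T ∩ K| ≠ 9`, part 6 (helper536): fixed points of the regular elements
-/

set_option autoImplicit false

namespace Cfsg.Agent.H536.Nine

open Subgroup Cfsg.Agent.H776.Co

universe u

variable {Γ : Type u} [Group Γ] {T U1 U2 K : Subgroup Γ} {z : Γ}

/-- the group `W × ⟨t⟩` -/
theorem card_sup_zpowers {W : Subgroup Γ} {t : Γ} (hW : Nat.card W = 3) (ht : orderOf t = 3) (htW : t ∉ W)
    (hc : ∀ x ∈ W, x * t = t * x) : Nat.card ↥(W ⊔ zpowers t) = 9 := by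
  have hfW : Finite W := Nat.finite_of_card_ne_zero (by rw [hW]; norm_num)
  have hcomm : ∀ (m : W) (n : zpowers t), Commute (W.subtype m) ((zpowers t).subtype n) := by
    rintro ⟨m, hm⟩ ⟨n, hn⟩
    obtain ⟨i, rfl⟩ := mem_zpowers_iff.1 hn
    exact Commute.zpow_right (hc m hm) i
  have hinj : Function.Injective (MonoidHom.noncommCoprod W.subtype (zpowers t).subtype hcomm) := by
    rw [MonoidHom.noncommCoprod_injective]
    refine ⟨W.subtype_injective, (zpowers t).subtype_injective, ?_⟩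
    rw [range_subtype, range_subtype, disjoint_iff]
    by_contra hne
    have h1 : Nat.card ↥(W ⊓ zpowers t) ∣ 3 := by rw [← hW]; exact card_dvd_of_le inf_le_left
    have hfi : Finite ↥(W ⊓ zpowers t) := Finite.of_injective (inclusion (inf_le_left : W ⊓ zpowers t ≤ W)) (inclusion_injective _)
    rcases (Nat.dvd_prime Nat.prime_three).1 h1 with h2 | h2
    · exact hne (card_eq_one.1 h2)
    · apply htW
      have hfz : Finite (zpowers t) := Nat.finite_of_card_ne_zero (by rw [Nat.card_zpowers, ht]; norm_num)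
      have h3 : W ⊓ zpowers t = zpowers t := eq_of_le_of_card_ge inf_le_right (by rw [h2, Nat.card_zpowers, ht])
      have h4 : t ∈ W ⊓ zpowers t := by rw [h3]; exact mem_zpowers t
      exact h4.1
  have h1 : Nat.card (W × zpowers t) = Nat.card (MonoidHom.noncommCoprod W.subtype (zpowers t).subtype hcomm).range :=
    Nat.card_congr (MonoidHom.ofInjective hinj).toEquiv
  rw [MonoidHom.noncommCoprod_range, range_subtype, range_subtype, Nat.card_prod, Nat.card_zpowers, ht, hW] at h1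
  exact h1.symm

open scoped Pointwise in
/-- a Sylow subgroup from its order -/
theorem conj_le (hT : Nat.card T = 27) [Finite Γ] (hsyl : ¬ 3 ∣ T.index) {S : Subgroup Γ} (hS : IsPGroup 3 S) :
    ∃ g : Γ, ∀ x ∈ S, g * x * g⁻¹ ∈ T := by
  have : Fact (Nat.Prime 3) := ⟨Nat.prime_three⟩
  have hTp : IsPGroup 3 T := IsPGroup.of_card (n := 3) (by rw [hT]; norm_num)
  obtain ⟨ST, hST⟩ := hTp.exists_le_sylow
  have hTS : (ST : Subgroup Γ) = T := by
    have h1 : T.relIndex ST ∣ T.index := relIndex_dvd_index_of_le hST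
    have h2 : T.relIndex ST ∣ Nat.card ST := by
      exact index_dvd_card _
    obtain ⟨k, hk⟩ := ST.2.exists_card_eq
    rw [hk] at h2
    obtain ⟨j, hj, h3⟩ := (Nat.dvd_prime_pow Nat.prime_three).1 h2
    have h4 : j = 0 := by
      by_contra hne
      apply hsyl
      refine dvd_trans ?_ h1
      rw [h3]
      exact dvd_pow_self 3 hne
    rw [h4, pow_zero, relIndex_eq_one] at h3
    exact le_antisymm h3 hST
  obtain ⟨S', hS'⟩ := hS.exists_le_sylow
  obtain ⟨g, hg⟩ := MulAction.exists_smul_eq Γ S' ST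
  refine ⟨g, fun x hx => ?_⟩
  rw [← hTS, ← hg]
  have h1 : x ∈ (S' : Subgroup Γ) := hS' hx
  have h2 : g * x * g⁻¹ = MulAut.conj g x := rfl
  rw [h2]
  change MulAut.conj g x ∈ (MulAut.conj g) • (S' : Subgroup Γ)
  rw [mem_pointwise_smul_iff_inv_smul_mem]
  have h3 : (MulAut.conj g)⁻¹ • MulAut.conj g x = x := by
    rw [MulAut.smul_def, ← MulAut.mul_apply, inv_mul_cancel, MulAut.one_apply]
  rwa [h3]

namespace Ctx1

variable [Finite Γ]

section

variable {t : Γ} (h : Ctx1 T U1 U2 z K) (ht : t ∈ T) (h1 : t ∉ U1) (h2 : t ∉ U2)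

include h ht h1 in
omit [Finite Γ] in
theorem notMem_K : t ∉ K := by
  intro h3
  apply h1
  rw [← h.eq]
  exact ⟨ht, h3⟩

include h ht h1 in
omit [Finite Γ] in
theorem order_t : orderOf t = 3 := by
  have : Fact (Nat.Prime 3) := ⟨Nat.prime_three⟩
  refine orderOf_eq_prime (h.exp t ht) ?_
  rintro rfl
  exact h1 U1.one_mem

include h ht h1 in
omit [Finite Γ] in
theorem nine_dvd_ctr : 9 ∣ Nat.card (centralizer ({t} : Set Γ)) := by
  have h3 : Nat.card ↥(zpowers z ⊔ zpowers t) = 9 := by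
    apply card_sup_zpowers h.card_z (h.order_t ht h1)
    · intro h4
      exact h1 (zpowers_le.2 h.z_mem1 h4)
    · intro x hx
      obtain ⟨i, rfl⟩ := mem_zpowers_iff.1 hx
      exact (Commute.zpow_right (h.z_comm t ht) i).symm
  rw [← h3]
  apply card_dvd_of_le
  rw [sup_le_iff, zpowers_le, zpowers_le]
  exact ⟨mem_centralizer_singleton_iff.2 (h.z_comm t ht).symm, mem_centralizer_singleton_iff.2 rfl⟩

include h ht h1 h2 in
theorem not_27_ctr : ¬ 27 ∣ Nat.card (centralizer ({t} : Set Γ)) := by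
  intro h27
  have : Fact (Nat.Prime 3) := ⟨Nat.prime_three⟩
  set C := centralizer ({t} : Set Γ) with hC
  have htC : t ∈ C := mem_centralizer_singleton_iff.2 rfl
  have hp : IsPGroup 3 (zpowers (⟨t, htC⟩ : C)) := by
    apply IsPGroup.of_card (n := 1)
    rw [Nat.card_zpowers, orderOf_mk, h.order_t ht h1, pow_one]
  obtain ⟨S, hS⟩ := hp.exists_le_sylow
  have h3 : 27 ∣ Nat.card (S : Subgroup C) := by
    rw [S.card_eq_multiplicity]
    have h4 : 3 ≤ (Nat.card C).factorization 3 :=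
      (Nat.prime_three.pow_dvd_iff_le_factorization Nat.card_pos.ne').1 (by simpa using h27)
    have h5 := pow_dvd_pow 3 h4
    simpa using h5
  obtain ⟨g, hg⟩ := conj_le h.card_T h.syl (S.2.map C.subtype)
  set S' := (S : Subgroup C).map C.subtype with hS'
  have h4 : cj g S' ≤ T := by
    intro x hx
    rw [mem_cj] at hx
    have := hg _ hx
    have h5 : g * (g⁻¹ * x * g) * g⁻¹ = x := by group
    rwa [h5] at this
  have h5 : Nat.card (cj g S') = Nat.card (S : Subgroup C) := by
    rw [card_cj, hS', card_map_of_injective C.subtype_injective]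
  have h6 : cj g S' = T := by
    apply eq_of_le_of_card_ge h4
    rw [h.card_T, h5]
    exact Nat.le_of_dvd Nat.card_pos h3
  have htS : t ∈ S' := ⟨⟨t, htC⟩, hS (mem_zpowers _), rfl⟩
  have h7 : g * t * g⁻¹ ∈ T := hg t htS
  have h8 : g * t * g⁻¹ ∈ zpowers z := by
    apply h.center _ h7
    intro y hy
    rw [← h6, mem_cj] at hy
    obtain ⟨⟨w, hwC⟩, hw, hwy⟩ := hy
    change w = g⁻¹ * y * g at hwy
    have h9 := mem_centralizer_singleton_iff.1 hwC
    have h10 : y = g * w * g⁻¹ := by rw [hwy]; group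
    rw [h10]
    calc g * t * g⁻¹ * (g * w * g⁻¹) = g * (t * w) * g⁻¹ := by group
      _ = g * (w * t) * g⁻¹ := by rw [h9]
      _ = _ := by group
  have h9 := h.type g⁻¹ (g * t * g⁻¹) (Or.inl (zpowers_le.2 h.z_mem1 h8))
  have h10 : g⁻¹ * (g * t * g⁻¹) * g⁻¹⁻¹ = t := by group
  rw [h10] at h9
  rcases h9 ht with h11 | h11
  · exact h1 h11
  · exact h2 h11

include h ht h1 in
/-- `t` does not centralize a Sylow 3-subgroup of `K` -/
theorem not_le_ctr (Q : Om K) : ¬ Q.1 ≤ centralizer ({t} : Set Γ) := by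
  intro hle
  have hK := h.normal
  have : Fact (Nat.Prime 3) := ⟨Nat.prime_three⟩
  obtain ⟨k, hk, hkQ⟩ := exists_smul h.nine_dvd h.not_27 Q h.P0
  set t' := k * t * k⁻¹ with ht'
  have h2 : ∀ x ∈ U1, x * t' = t' * x := by
    intro x hx
    have h3 : x ∈ (k • Q).1 := by rw [hkQ]; exact hx
    rw [coe_smul, mem_cj] at h3
    have h4 := mem_centralizer_singleton_iff.1 (hle h3)
    rw [ht']
    calc x * (k * t * k⁻¹) = k * ((k⁻¹ * x * k) * t) * k⁻¹ := by group
      _ = k * (t * (k⁻¹ * x * k)) * k⁻¹ := by rw [h4]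
      _ = k * t * k⁻¹ * x := by group
  have ho : orderOf t' = 3 := by
    rw [← h.order_t ht h1, ht']
    exact orderOf_injective (MulAut.conj k).toMonoidHom (MulAut.conj k).injective t
  have ht'K : t' ∉ K := by
    intro h3
    apply h.notMem_K ht h1
    have h4 := hK.conj_mem _ h3 k⁻¹
    have h5 : k⁻¹ * t' * k⁻¹⁻¹ = t := by rw [ht']; group
    rwa [h5] at h4
  have hTp : IsPGroup 3 T := IsPGroup.of_card (n := 3) (by rw [h.card_T]; norm_num)
  have hzp : IsPGroup 3 (zpowers t') := IsPGroup.of_card (n := 1) (by rw [Nat.card_zpowers, ho]; norm_num)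
  have h3 : IsPGroup 3 ↥(T ⊔ zpowers t') := by
    apply h.tri z (Or.inl h.z_mem1) h.z_ne _ _ hTp hzp
    · intro x hx
      exact mem_centralizer_singleton_iff.2 (h.z_comm x hx)
    · rw [zpowers_le]
      exact mem_centralizer_singleton_iff.2 (h2 z h.z_mem1).symm
  obtain ⟨g, hg⟩ := conj_le h.card_T h.syl h3
  have h4 : Nat.card ↥(T ⊔ zpowers t') ≤ 27 := by
    rw [← card_cj g, ← h.card_T]
    apply card_le_of_le
    intro x hx
    rw [mem_cj] at hx
    have := hg _ hx
    have h5 : g * (g⁻¹ * x * g) * g⁻¹ = x := by group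
    rwa [h5] at this
  have h5 : T = T ⊔ zpowers t' := eq_of_le_of_card_ge le_sup_left (by rw [h.card_T]; exact h4)
  have h6 : t' ∈ T := by rw [h5]; exact mem_sup_right (mem_zpowers t')
  have h7 : t' ∉ U1 := fun h8 => ht'K (h.le_K h8)
  -- `U1` is not central in `T`
  obtain ⟨u, hu, huz⟩ : ∃ u ∈ U1, u ∉ zpowers z := by
    by_contra hne
    push Not at hne
    have h8 := card_le_of_le (fun x hx => hne x hx : U1 ≤ zpowers z)
    rw [h.card1, h.card_z] at h8
    omega
  exact h.not_comm h.le1 h.card1 h6 h7 hu huz (h2 u hu).symm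

end

end Ctx1

end Cfsg.Agent.H536.Nine
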